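import Cfsg.Agent.Lib.Cores.PCore
import Cfsg.Agent.Lib.CoprimeAction.Basic
import Cfsg.Agent.Lib.BenderCount.Basic
import Cfsg.Agent.Lib.Involutions.Basic

/-!
Groups in which distinct Sylow 2-subgroups have cyclic intersections: two 2-elements with
noncyclic extensions over a cyclic normal 2-subgroup `Q`, lying in different Sylow 2-subgroups,
are conjugate modulo a cyclic 2-subgroup.
-/

set_option autoImplicit false
set_option linter.style.haveILetI false
set_option linter.unusedSectionVars false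

namespace CfsgLib.CyclicInter

open Cfsg

universe u

variable {G : Type u} [Group G] [Finite G]

/-- Distinct Sylow 2-subgroups intersect in cyclic groups. -/
def CyclicMeets (G : Type u) [Group G] : Prop :=
  ∀ S T : Sylow 2 G, S ≠ T → IsCyclic ↥((S : Subgroup G) ⊓ (T : Subgroup G))

/-- `b` generates with `Q` a noncyclic group. -/
def Noncyc (Q : Subgroup G) (b : G) : Prop := ¬ IsCyclic ↥(Q ⊔ Subgroup.zpowers b)

theorem isCyclic_of_le {A B : Subgroup G} [IsCyclic B] (h : A ≤ B) : IsCyclic A :=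
  isCyclic_of_injective (Subgroup.inclusion h) (Subgroup.inclusion_injective h)

theorem eq_of_noncyclic (hI : CyclicMeets G) {X : Subgroup G} (hX : ¬ IsCyclic X) {S T : Sylow 2 G}
    (hS : X ≤ S) (hT : X ≤ T) : S = T := by
  by_contra h
  haveI := hI S T h
  exact hX (isCyclic_of_le (le_inf hS hT))

theorem commute_of_mem_cyclic {D : Subgroup G} [IsCyclic D] {x y : G} (hx : x ∈ D) (hy : y ∈ D) :
    x * y = y * x := by
  haveI : IsMulCommutative D := IsCyclic.commutative
  exact congrArg Subtype.val (IsMulCommutative.is_comm.comm (⟨x, hx⟩ : D) ⟨y, hy⟩)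

theorem exists_pow_sq_of_mem {D : Subgroup G} (hD : IsPGroup 2 D) {b : G} (hb : b * b ∈ D) :
    IsPGroup 2 (Subgroup.zpowers b) := by
  obtain ⟨k, hk⟩ := hD ⟨b * b, hb⟩
  have hk' : b ^ (2 * 2 ^ k) = 1 := by
    have := congrArg Subtype.val hk
    rw [pow_mul, pow_two]
    simpa using this
  intro ⟨x, hx⟩
  obtain ⟨i, rfl⟩ := Subgroup.mem_zpowers_iff.1 hx
  refine ⟨k + 1, Subtype.ext ?_⟩
  show (b ^ i) ^ (2 ^ (k + 1)) = 1
  rw [← zpow_natCast, ← zpow_mul, mul_comm, zpow_mul, zpow_natCast, pow_succ', hk', one_zpow]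

theorem isPGroup_sup_zpowers {D : Subgroup G} (hD : IsPGroup 2 D) {b : G}
    (hn : b ∈ Subgroup.normalizer (D : Set G)) (hb : b * b ∈ D) :
    IsPGroup 2 ↥(D ⊔ Subgroup.zpowers b) :=
  hD.to_sup_of_normal_left' (exists_pow_sq_of_mem hD hb) (Subgroup.zpowers_le.2 hn)

theorem noncyc_not_mem {Q D : Subgroup G} [IsCyclic D] (hQD : Q ≤ D) {b : G} (hb : Noncyc Q b) :
    b ∉ D := fun h =>
  hb (isCyclic_of_le (sup_le hQD (Subgroup.zpowers_le.2 h)))

theorem noncyc_conj {Q : Subgroup G} [Q.Normal] {b : G} (hb : Noncyc Q b) (g : G) :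
    Noncyc Q (g * b * g⁻¹) := by
  intro h
  refine hb ?_
  have e : (Q ⊔ Subgroup.zpowers b).map (MulAut.conj g).toMonoidHom =
      Q ⊔ Subgroup.zpowers (g * b * g⁻¹) := by
    rw [Subgroup.map_sup, MonoidHom.map_zpowers]
    congr 1
    exact Subgroup.mem_normalizer_iff_map_conj_eq.mp
      (by rw [Subgroup.normalizer_eq_top]; trivial)
  rw [← e] at h
  exact isCyclic_of_surjective _
    ((Q ⊔ Subgroup.zpowers b).equivMapOfInjective (MulAut.conj g).toMonoidHom
      (MulAut.conj g).injective).symm.surjective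

theorem conj_mem_normalizer_sup {D : Subgroup G} {a v : G}
    (ha : a ∈ Subgroup.normalizer (D : Set G)) (hav : v⁻¹ * (a * v * a⁻¹) ∈ D) :
    a ∈ Subgroup.normalizer ((D ⊔ Subgroup.zpowers v : Subgroup G) : Set G) := by
  refine CoprimeAction.mem_normalizer_of_conj_mem fun x hx => ?_
  have h : D ⊔ Subgroup.zpowers v ≤
      (D ⊔ Subgroup.zpowers v).comap (MulAut.conj a).toMonoidHom := by
    refine sup_le (fun d hd => Subgroup.mem_sup_left ((Subgroup.mem_normalizer_iff.1 ha d).1 hd))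
      (Subgroup.zpowers_le.2 ?_)
    show a * v * a⁻¹ ∈ D ⊔ Subgroup.zpowers v
    have := Subgroup.mul_mem _ (Subgroup.mem_sup_right (Subgroup.mem_zpowers v))
      (Subgroup.mem_sup_left (T := Subgroup.zpowers v) hav)
    rwa [mul_inv_cancel_left] at this
  exact h hx

theorem exists_mk_eq {H D : Subgroup G} [(D.subgroupOf H).Normal] {x y : H}
    (h : QuotientGroup.mk' (D.subgroupOf H) x = QuotientGroup.mk' (D.subgroupOf H) y) :
    (x : G)⁻¹ * y ∈ D := by
  have := Subgroup.mem_subgroupOf.1 (QuotientGroup.eq.1 h)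
  simpa using this

theorem mk_eq_one_iff {H D : Subgroup G} [(D.subgroupOf H).Normal] (x : H) :
    QuotientGroup.mk' (D.subgroupOf H) x = 1 ↔ (x : G) ∈ D := by
  rw [QuotientGroup.mk'_apply, QuotientGroup.eq_one_iff, Subgroup.mem_subgroupOf]

theorem exists_conj_mem_mul (hI : CyclicMeets G) {Q : Subgroup G} [Q.Normal] :
    ∀ (n : ℕ) (D : Subgroup G), Nat.card G - Nat.card D = n → Q ≤ D → IsPGroup 2 D → IsCyclic D →
      ∀ (a b : G) (S T : Sylow 2 G), a ∈ Subgroup.normalizer (D : Set G) →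
        b ∈ Subgroup.normalizer (D : Set G) → a * a ∈ D → b * b ∈ D → Noncyc Q a → Noncyc Q b →
        Q ⊔ Subgroup.zpowers a ≤ (S : Subgroup G) → Q ⊔ Subgroup.zpowers b ≤ (T : Subgroup G) →
        S ≠ T →
        ∃ D' : Subgroup G, Q ≤ D' ∧ IsPGroup 2 D' ∧ IsCyclic D' ∧
          b ∈ Subgroup.normalizer (D' : Set G) ∧ ∃ h : G, ∃ δ ∈ D', h * a * h⁻¹ = b * δ := by
  intro n
  induction n using Nat.strong_induction_on with
  | _ n ih =>
  intro D hn hQD hD2 hDc a b S T ha hb ha2 hb2 hna hnb haS hbT hST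
  haveI := hDc
  set N := Subgroup.normalizer (D : Set G) with hN
  haveI : (D.subgroupOf N).Normal := Subgroup.normal_in_normalizer
  have hord : ∀ (c : G) (hc : c ∈ N), c * c ∈ D → Noncyc Q c →
      orderOf (QuotientGroup.mk' (D.subgroupOf N) ⟨c, hc⟩) = 2 := fun c hc hc2 hnc =>
    Involutions.orderOf_eq_two_iff.2 ⟨by
      rw [← map_mul]; exact (mk_eq_one_iff _).2 hc2,
      fun e => noncyc_not_mem hQD hnc ((mk_eq_one_iff _).1 e)⟩
  rcases BenderCount.exists_comm_or_conj (hord a ha ha2 hna) (hord b hb hb2 hnb) with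
    ⟨z, hz, hza, hzb⟩ | ⟨h, -, hh⟩
  · obtain ⟨⟨v, hv⟩, rfl⟩ := QuotientGroup.mk'_surjective (D.subgroupOf N) z
    obtain ⟨hz2, hz1⟩ := Involutions.orderOf_eq_two_iff.1 hz
    rw [← map_mul] at hz2
    have hv2 : v * v ∈ D := (mk_eq_one_iff _).1 hz2
    have hvD : v ∉ D := fun e => hz1 ((mk_eq_one_iff _).2 e)
    set D' := D ⊔ Subgroup.zpowers v with hD'
    have hD'2 : IsPGroup 2 D' := isPGroup_sup_zpowers hD2 hv hv2
    have hcomm : ∀ c : G, ∀ hc : c ∈ N, QuotientGroup.mk' (D.subgroupOf N) ⟨v, hv⟩ *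
        QuotientGroup.mk' (D.subgroupOf N) ⟨c, hc⟩ = QuotientGroup.mk' (D.subgroupOf N) ⟨c, hc⟩ *
        QuotientGroup.mk' (D.subgroupOf N) ⟨v, hv⟩ →
        c ∈ Subgroup.normalizer (D' : Set G) := fun c hc e => by
      refine conj_mem_normalizer_sup hc ?_
      refine exists_mk_eq (H := N) (D := D) (x := ⟨v, hv⟩) (y := ⟨c, hc⟩ * ⟨v, hv⟩ * ⟨c, hc⟩⁻¹) ?_
      rw [map_mul, map_mul, map_inv, ← e, mul_inv_cancel_right]
    have haN := hcomm a ha hza
    have hbN := hcomm b hb hzb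
    have hle : D ≤ D' := le_sup_left
    by_cases hcyc : IsCyclic D'
    · refine ih _ ?_ D' rfl (hQD.trans hle) hD'2 hcyc a b S T haN hbN (hle ha2) (hle hb2) hna hnb
        haS hbT hST
      have hlt : Nat.card D < Nat.card D' :=
        lt_of_le_of_ne (Subgroup.card_le_of_le hle) fun e =>
          hvD ((Subgroup.eq_of_le_of_card_ge hle e.ge).symm ▸ Subgroup.mem_sup_right (Subgroup.mem_zpowers v))
      have := Subgroup.card_le_card_group D'
      omega
    · exfalso
      have key : ∀ (c : G) (R : Sylow 2 G), Noncyc Q c → Q ⊔ Subgroup.zpowers c ≤ R →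
          c ∈ Subgroup.normalizer (D' : Set G) → c * c ∈ D' → D' ≤ R := fun c R hc hcR hcN hc2 => by
        obtain ⟨R', hR'⟩ := (isPGroup_sup_zpowers hD'2 hcN hc2).exists_le_sylow
        obtain rfl := eq_of_noncyclic hI hc hcR
          ((sup_le_sup_right (hQD.trans hle) _).trans hR')
        exact le_sup_left.trans hR'
      exact hST (eq_of_noncyclic hI hcyc (key a S hna haS haN (hle ha2))
        (key b T hnb hbT hbN (hle hb2)))
  · obtain ⟨h, rfl⟩ := QuotientGroup.mk'_surjective (D.subgroupOf N) h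
    rw [← map_inv, ← map_mul, ← map_mul] at hh
    refine ⟨D, hQD, hD2, hDc, hb, h, b⁻¹ * (h * a * (h : G)⁻¹), ?_, ?_⟩
    · exact exists_mk_eq (H := N) (D := D) (x := (⟨b, hb⟩ : N)) (y := h * ⟨a, ha⟩ * h⁻¹) hh.symm
    · rw [mul_inv_cancel_left]

end CfsgLib.CyclicInter
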