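import Mathlib

/-!
A conjugacy class of involutions of a finite nilpotent group which is closed under products of
commuting distinct members consists of a central element.
-/

set_option autoImplicit false
set_option linter.style.haveILetI false

open scoped commutatorElement

namespace CfsgLib.CyclicInter

universe u

theorem mem_center_of_class_closed {P : Type u} [Group P] [Group.IsNilpotent P]
    {e : P} (he : e * e = 1)
    (h : ∀ u v : P, IsConj e u → IsConj e v → u ≠ v → u * v = v * u → IsConj e (u * v)) :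
    e ∈ Subgroup.center P := by
  by_contra hc
  have hlt : Subgroup.centralizer ({e} : Set P) < ⊤ := lt_top_iff_ne_top.2 fun ht =>
    hc (Subgroup.mem_center_iff.2 fun g =>
      Subgroup.mem_centralizer_singleton_iff.1 (ht.ge (Subgroup.mem_top g)))
  obtain ⟨n, hn, hnC⟩ :=
    SetLike.exists_of_lt (Group.normalizerCondition_of_isNilpotent _ hlt)
  set e' := n * e * n⁻¹ with he'
  have heC : e ∈ Subgroup.centralizer ({e} : Set P) := Subgroup.mem_centralizer_singleton_iff.2 rfl
  have he'C : e' ∈ Subgroup.centralizer ({e} : Set P) := (Subgroup.mem_normalizer_iff.1 hn e).1 heC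
  have hne : e ≠ e' := fun e0 => hnC (Subgroup.mem_centralizer_singleton_iff.2
    (mul_inv_eq_iff_eq_mul.1 e0.symm))
  obtain ⟨c, hc'⟩ := isConj_iff.1 (h e e' (IsConj.refl e) (isConj_iff.2 ⟨n, rfl⟩) hne
    (Subgroup.mem_centralizer_singleton_iff.1 he'C).symm)
  set Y := Subgroup.normalClosure ({e} : Set P)
  have heY : e ∈ Y := Subgroup.subset_normalClosure rfl
  haveI : (⁅Y, (⊤ : Subgroup P)⁆).Normal := inferInstance
  have heN : e ∈ ⁅Y, (⊤ : Subgroup P)⁆ := by
    have key : ∀ g : P, g * e * g⁻¹ * e⁻¹ ∈ ⁅Y, (⊤ : Subgroup P)⁆ := fun g => by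
      have h1 : ⁅e, g⁆⁻¹ ∈ ⁅Y, (⊤ : Subgroup P)⁆ :=
        inv_mem (Subgroup.commutator_mem_commutator heY (Subgroup.mem_top g))
      convert h1 using 1
      simp [commutatorElement_def, mul_assoc]
    have e1 : e⁻¹ = e := inv_eq_of_mul_eq_one_right he
    -- `e e' = c e c⁻¹` and both `e'` and `c e c⁻¹` are `≡ e`
    have e2 : e * e' * e⁻¹ = c * e * c⁻¹ * e⁻¹ := by rw [hc']
    have e3 : e * (e' * e⁻¹) * e⁻¹ ∈ ⁅Y, (⊤ : Subgroup P)⁆ :=
      Subgroup.Normal.conj_mem inferInstance _ (key n) e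
    have e4 : e * e' * e⁻¹ ∈ ⁅Y, (⊤ : Subgroup P)⁆ := e2 ▸ key c
    have e5 := mul_mem (inv_mem e3) e4
    have e6 : (e * (e' * e⁻¹) * e⁻¹)⁻¹ * (e * e' * e⁻¹) = e * (e' * e⁻¹)⁻¹ * e' * e⁻¹ := by group
    rw [e6, mul_inv_rev, inv_inv] at e5
    simpa [mul_assoc, e1, he] using e5
  have hYN : Y ≤ ⁅Y, (⊤ : Subgroup P)⁆ := Subgroup.normalClosure_le_normal (by simpa using heN)
  have hlcs : ∀ k : ℕ, Y ≤ Subgroup.lowerCentralSeries (⊤ : Subgroup P) k := by
    intro k
    induction k with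
    | zero => simp
    | succ k ih =>
      exact hYN.trans (by rw [Subgroup.lowerCentralSeries_succ]; exact Subgroup.commutator_mono ih le_rfl)
  obtain ⟨k, hk⟩ := Subgroup.nilpotent_iff_lowerCentralSeries.1 ‹Group.IsNilpotent P›
  have := hlcs k heY
  rw [hk, Subgroup.mem_bot] at this
  exact hc (this ▸ one_mem _)

end CfsgLib.CyclicInter
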