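import Cfsg.Agent.Lib.CyclicInter.Fusion
import Cfsg.Agent.Lib.CyclicInter.NoClass
import Cfsg.Agent.Lib.Signalizer.UniqueInvolution
import Cfsg.Agent.Lib.TwoGroups.Aut

/-!
If distinct Sylow 2-subgroups meet in cyclic groups, there are at least two of them and
`O(G) = 1`, then a cyclic `O₂(G)` is central.
-/

set_option autoImplicit false
set_option linter.style.haveILetI false
set_option linter.unusedSectionVars false

open scoped Pointwise commutatorElement

namespace CfsgLib.CyclicInter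

open Cfsg

universe u

variable {G : Type u} [Group G] [Finite G] {Q : Subgroup G} [Q.Normal]

theorem conjNormal_eq_one_iff (g : G) :
    (MulAut.conjNormal g : MulAut Q) = 1 ↔ g ∈ Subgroup.centralizer (Q : Set G) := by
  refine ⟨fun h => Subgroup.mem_centralizer_iff.2 fun w hw => ?_, fun h => ?_⟩
  · have := congrArg (fun f : MulAut Q => ((f ⟨w, hw⟩ : Q) : G)) h
    simp only [MulAut.conjNormal_apply, MulAut.one_apply] at this
    exact (mul_inv_eq_iff_eq_mul.1 this).symm
  · refine MulEquiv.ext fun w => Subtype.ext ?_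
    rw [MulAut.conjNormal_apply, MulAut.one_apply, ← Subgroup.mem_centralizer_iff.1 h w w.2,
      mul_inv_cancel_right]

theorem exists_two_pow_mem_centralizer [IsCyclic Q] (hQ2 : IsPGroup 2 Q) (g : G) :
    ∃ k : ℕ, g ^ 2 ^ k ∈ Subgroup.centralizer (Q : Set G) := by
  obtain ⟨k, hk⟩ := TwoGroups.isPGroup_mulAut_of_isCyclic hQ2 (MulAut.conjNormal g)
  exact ⟨k, (conjNormal_eq_one_iff _).1 (by rw [map_pow, hk])⟩

theorem mem_centralizer_of_odd [IsCyclic Q] (hQ2 : IsPGroup 2 Q) {g : G} (hg : Odd (orderOf g)) :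
    g ∈ Subgroup.centralizer (Q : Set G) := by
  obtain ⟨k, hk⟩ := exists_two_pow_mem_centralizer hQ2 g
  obtain ⟨m, hm⟩ := exists_pow_eq_self_of_coprime
    ((Nat.coprime_two_left.mpr hg).pow_left k : Nat.Coprime (2 ^ k) (orderOf g))
  exact hm ▸ pow_mem hk m

theorem eq_top_of_sylow_le [IsCyclic Q] (hQ2 : IsPGroup 2 Q) (S : Sylow 2 G)
    (h : (S : Subgroup G) ≤ Subgroup.centralizer (Q : Set G)) :
    Subgroup.centralizer (Q : Set G) = ⊤ := by
  haveI : Fact (Nat.Prime 2) := ⟨Nat.prime_two⟩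
  haveI hn : (Subgroup.centralizer (Q : Set G)).Normal :=
    ⟨fun x hx g => mem_centralizer_conj hx g⟩
  have hp : IsPGroup 2 (G ⧸ Subgroup.centralizer (Q : Set G)) := fun x => by
    obtain ⟨g, rfl⟩ := QuotientGroup.mk'_surjective _ x
    obtain ⟨k, hk⟩ := exists_two_pow_mem_centralizer hQ2 g
    exact ⟨k, by rw [← map_pow]; exact (QuotientGroup.eq_one_iff _).2 hk⟩
  obtain ⟨k, hk⟩ := IsPGroup.iff_card.1 hp
  rw [← Subgroup.index_eq_card] at hk
  refine Subgroup.index_eq_one.1 ?_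
  rcases k with _ | k
  · simpa using hk
  · exact absurd ((dvd_pow_self 2 k.succ_ne_zero).trans (hk ▸ Subgroup.index_dvd_of_le h))
      S.not_dvd_index

theorem mem_of_conj_sylow {S : Sylow 2 G} {a : G} (g : G) (ha : a ∈ (S : Subgroup G)) :
    g * a * g⁻¹ ∈ ((g • S : Sylow 2 G) : Subgroup G) := by
  rw [Sylow.coe_subgroup_smul]
  exact ⟨a, ha, rfl⟩

/-- No element outside `C(Q)` squares into `Q`. -/
theorem centralizer_eq_top_of_sq (hI : CyclicMeets G) (htwo : ∀ S : Sylow 2 G, ∃ T, T ≠ S)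
    (hO : oddCore G = ⊥) [IsCyclic Q] (hQ2 : IsPGroup 2 Q) (h4 : 2 < Nat.card Q)
    (hQ : pCore 2 G ≤ Q) {a : G}
    (ha2 : a * a ∈ Q) : a ∈ Subgroup.centralizer (Q : Set G) := by
  haveI : Fact (Nat.Prime 2) := ⟨Nat.prime_two⟩
  by_contra haC
  set C := Subgroup.centralizer (Q : Set G) with hC
  haveI hCn : C.Normal := ⟨fun x hx g => mem_centralizer_conj hx g⟩
  obtain ⟨S, hS⟩ := (exists_pow_sq_of_mem hQ2 ha2).exists_le_sylow
  have haS : a ∈ (S : Subgroup G) := hS (Subgroup.mem_zpowers a)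
  -- no element of `C` has square in `Q` and noncyclic `Q⟨b⟩`
  have hno : ∀ b ∈ C, b * b ∈ Q → ¬ Noncyc Q b := fun b hbC hb2 hb => by
    have hall : ∀ g : G, g * b * g⁻¹ ∈ (S : Subgroup G) := fun g => by
      obtain ⟨T, hT⟩ := (exists_pow_sq_of_mem hQ2 (sq_conj_mem hb2 g)).exists_le_sylow
      have hbT : g * b * g⁻¹ ∈ (T : Subgroup G) := hT (Subgroup.mem_zpowers _)
      exact sylow_eq_of_outside hI hQ2 haC ha2 (mem_centralizer_conj hbC g) (sq_conj_mem hb2 g)
        (noncyc_conj hb g) haS hbT ▸ hbT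
    have hle : Subgroup.normalClosure ({b} : Set G) ≤ (S : Subgroup G) := by
      rw [Subgroup.normalClosure, Subgroup.closure_le]
      intro x hx
      obtain ⟨b', hb', hconj⟩ := Group.mem_conjugatesOfSet_iff.1 hx
      obtain rfl : b' = b := hb'
      obtain ⟨g, rfl⟩ := isConj_iff.1 hconj
      exact hall g
    exact noncyc_not_mem le_rfl hb (hQ ((Cores.le_pCore (S.2.to_le hle))
      (Subgroup.subset_normalClosure rfl)))
  -- the Sylow 2-subgroups of `C` are cyclic
  obtain ⟨P⟩ := (inferInstance : Nonempty (Sylow 2 C))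
  obtain ⟨z, hzQ, hz2⟩ := exists_involution hQ2 h4
  have hQC : Q ≤ C := fun x hx =>
    Subgroup.mem_centralizer_iff.2 fun w hw => commute_of_mem_cyclic hw hx
  have hQP : ∀ x ∈ Q, ∀ hx : x ∈ C, (⟨x, hx⟩ : C) ∈ (P : Subgroup C) := fun x hx hxC => by
    haveI : (Q.subgroupOf C).Normal := inferInstance
    exact (Cores.le_pCore (hQ2.comap_subtype (K := C))).trans (Cores.pCore_le_sylow P)
      (Subgroup.mem_subgroupOf.2 hx)
  have hzP := hQP z hzQ (hQC hzQ)
  have hone : Signalizer.OnlyInvolution (⟨⟨z, hQC hzQ⟩, hzP⟩ : (P : Subgroup C)) := by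
    refine ⟨by rw [Subgroup.orderOf_mk, Subgroup.orderOf_mk, hz2], fun t ht => ?_⟩
    have ht2 : orderOf ((t : C) : G) = 2 := by rw [Subgroup.orderOf_coe, Subgroup.orderOf_coe, ht]
    have hsq := Involutions.mul_self_eq_one ht2
    have htQ : ((t : C) : G) ∈ Q := by
      by_contra htQ
      exact hno _ (t : C).2 (hsq ▸ one_mem _)
        (noncyc_of_isSq hQ2 h4 (t : C).2 htQ ⟨1, one_mem _, by rw [hsq, one_mul]⟩)
    refine Subtype.ext (Subtype.ext ?_)
    show ((t : C) : G) = z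
    classical
    haveI := Fintype.ofFinite Q
    by_contra hne
    have hsub : ({1, ⟨z, hzQ⟩, ⟨((t : C) : G), htQ⟩} : Finset Q) ⊆
        Finset.univ.filter (fun a => a ^ 2 = 1) := by
      intro a ha
      simp only [Finset.mem_insert, Finset.mem_singleton] at ha
      simp only [Finset.mem_filter, Finset.mem_univ, true_and, pow_two]
      rcases ha with rfl | rfl | rfl
      · exact one_mul 1
      · exact Subtype.ext (Involutions.mul_self_eq_one hz2)
      · exact Subtype.ext hsq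
    have hcard : ({1, ⟨z, hzQ⟩, ⟨((t : C) : G), htQ⟩} : Finset Q).card = 3 := by
      refine Finset.card_eq_three.2 ⟨1, _, _, ?_, ?_, ?_, rfl⟩
      · exact fun e => Involutions.ne_one hz2 (congrArg Subtype.val e).symm
      · exact fun e => Involutions.ne_one ht2 (congrArg Subtype.val e).symm
      · exact fun e => hne (congrArg Subtype.val e).symm
    have := (Finset.card_le_card hsub).trans (IsCyclic.card_pow_eq_one_le (n := 2) two_pos)
    omega
  have hPc : IsCyclic (P : Subgroup C) := by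
    by_contra hnc
    obtain ⟨q, hq⟩ := exists_gen (Q := Q)
    have hqQ : q ∈ Q := hq ▸ Subgroup.mem_zpowers q
    have h := Signalizer.sq_eq_one_of_central P.2 hone hnc
      (x := ⟨⟨q, hQC hqQ⟩, hQP q hqQ (hQC hqQ)⟩) fun y => Subtype.ext (Subtype.ext
        (Subgroup.mem_centralizer_iff.1 (y : C).2 q hqQ))
    have hqq : q * q = 1 := congrArg (fun y : (P : Subgroup C) => ((y : C) : G)) h
    have : Nat.card Q ≤ 2 := by
      rw [← hq, Nat.card_zpowers]
      exact Nat.le_of_dvd two_pos (orderOf_dvd_of_pow_eq_one (by rw [pow_two, hqq]))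
    omega
  have heven : (Nat.card C).minFac = 2 := by
    refine (Nat.minFac_eq_two_iff _).2 ?_
    exact hz2 ▸ Subgroup.orderOf_dvd_natCard C (hQC hzQ)
  have hP : (P : Subgroup C).index = 1 := by
    set f := MonoidHom.transferSylow P (hPc.normalizer_le_centralizer heven)
    have hcompl := MonoidHom.ker_transferSylow_isComplement' P (hPc.normalizer_le_centralizer heven)
    have hodd : Odd (Nat.card f.ker) := by
      rw [← Nat.not_even_iff_odd, even_iff_two_dvd]
      exact MonoidHom.not_dvd_card_ker_transferSylow P _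
    have hbot : f.ker = ⊥ := by
      have h1 : f.ker ≤ oddCore C := Cores.le_oddCore hodd
      have h2 := Cores.map_subtype_pPrimeCore_le (p := 2) (N := C)
        (Subgroup.Normal.isSubnormal inferInstance)
      rw [eq_bot_iff]
      intro x hx
      have := h2 (Subgroup.mem_map_of_mem C.subtype (h1 hx))
      rw [show pPrimeCore 2 G = ⊥ from hO, Subgroup.mem_bot] at this
      exact Subtype.ext this
    have := hcompl.index_eq_card
    rw [this, hbot, Subgroup.card_bot]
  have hC2 : IsPGroup 2 C := fun x => by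
    have hx : x ∈ (P : Subgroup C) := by rw [Subgroup.index_eq_one.1 hP]; trivial
    obtain ⟨k, hk⟩ := P.2 ⟨x, hx⟩
    exact ⟨k, congrArg Subtype.val hk⟩
  have hG2 : IsPGroup 2 G := fun g => by
    obtain ⟨k, hk⟩ := exists_two_pow_mem_centralizer hQ2 g
    obtain ⟨m, hm⟩ := hC2 ⟨g ^ 2 ^ k, hk⟩
    exact ⟨k + m, by rw [pow_add, pow_mul]; simpa using congrArg Subtype.val hm⟩
  obtain ⟨T, hT⟩ := htwo S
  refine hT (Sylow.ext ?_)
  rw [show (T : Subgroup G) = ⊤ from (T.3 (hG2.to_subgroup ⊤) le_top).symm,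
    show (S : Subgroup G) = ⊤ from (S.3 (hG2.to_subgroup ⊤) le_top).symm]

theorem oddCore_quotient (hO : oddCore G = ⊥) [IsCyclic Q] (hQ2 : IsPGroup 2 Q) :
    oddCore (G ⧸ Q) = ⊥ := by
  haveI : Fact (Nat.Prime 2) := ⟨Nat.prime_two⟩
  haveI : (oddCore (G ⧸ Q)).Normal :=
    haveI := Cores.pPrimeCore_characteristic 2 (G ⧸ Q); inferInstance
  set K := (oddCore (G ⧸ Q)).comap (QuotientGroup.mk' Q) with hK
  set m := Nat.card (oddCore (G ⧸ Q)) with hm
  have hmo : Odd m := Cores.odd_card_oddCore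
  have hKcard : Nat.card K = Nat.card Q * m := Cores.card_comap_mk' Q _
  have hQK : Q ≤ K := fun z hz => by
    show QuotientGroup.mk' Q z ∈ oddCore (G ⧸ Q)
    rw [show QuotientGroup.mk' Q z = 1 from (QuotientGroup.eq_one_iff z).mpr hz]
    exact one_mem _
  have hKC : ∀ y ∈ K, y ∈ Subgroup.centralizer (Q : Set G) := fun y hy => by
    obtain ⟨k, hk⟩ := exists_two_pow_mem_centralizer hQ2 y
    have hd : y ^ m ∈ Q := by
      refine (QuotientGroup.eq_one_iff _).1 (show QuotientGroup.mk' Q (y ^ m) = 1 from ?_)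
      rw [map_pow]
      exact congrArg Subtype.val (pow_card_eq_one' (x := (⟨_, hy⟩ : oddCore (G ⧸ Q))))
    have hm' : y ^ m ∈ Subgroup.centralizer (Q : Set G) :=
      Subgroup.mem_centralizer_iff.2 fun w hw => commute_of_mem_cyclic hw hd
    obtain ⟨a, b, hab⟩ := Nat.Coprime.isCoprime ((Nat.coprime_two_left.mpr hmo).pow_left k)
    have := mul_mem (zpow_mem hk a) (zpow_mem hm' b)
    rw [← zpow_natCast y, ← zpow_mul, ← zpow_natCast y, ← zpow_mul, ← zpow_add,
      mul_comm _ a, mul_comm _ b, hab, zpow_one] at this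
    exact this
  have hcard : Nat.card (Q.subgroupOf K) = Nat.card Q :=
    Nat.card_congr (Subgroup.subgroupOfEquivOfLe hQK).toEquiv
  have hidx : (Q.subgroupOf K).index = m := by
    have := (Q.subgroupOf K).card_mul_index
    rw [hcard, hKcard] at this
    exact Nat.eq_of_mul_eq_mul_left Nat.card_pos this
  obtain ⟨e, he⟩ := IsPGroup.iff_card.mp hQ2
  have hcop : Nat.Coprime (Nat.card Q) m := by
    rw [he]
    exact (Nat.coprime_two_left.mpr hmo).pow_left e
  obtain ⟨A, hA⟩ := Subgroup.exists_right_complement'_of_coprime (N := Q.subgroupOf K)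
    (by rw [hcard, hidx]; exact hcop)
  have hAcard : Nat.card A = m := by
    have := hA.card_mul
    rw [hcard, hKcard] at this
    exact Nat.eq_of_mul_eq_mul_left Nat.card_pos this
  have hiff : ∀ y : K, y ∈ A ↔ (y : G) ^ m = 1 := by
    intro y
    refine ⟨fun hy => ?_, fun hy => ?_⟩
    · have := congrArg (fun a : A => ((a : K) : G)) (pow_card_eq_one' (x := (⟨y, hy⟩ : A)))
      rw [hAcard] at this
      simpa using this
    obtain ⟨⟨⟨z, hz⟩, ⟨a, ha⟩⟩, hza : z * a = y⟩ := hA.2 y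
    have ha1 := congrArg (fun a : A => ((a : K) : G)) (pow_card_eq_one' (x := (⟨a, ha⟩ : A)))
    rw [hAcard] at ha1
    have ha' : (a : G) ^ m = 1 := by simpa using ha1
    have hcomm : Commute (z : G) (a : G) := Subgroup.mem_centralizer_iff.1 (hKC _ a.2) _ hz
    have hzm : (z : G) ^ m = 1 := by
      rw [← hza, Subgroup.coe_mul, hcomm.mul_pow, ha', mul_one] at hy
      exact hy
    have hz1 : (z : G) = 1 := by
      have h1 : (z : G) ^ Nat.card Q = 1 := by
        have h0 := congrArg Subtype.val (pow_card_eq_one' (x := (⟨(z : G), hz⟩ : Q)))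
        rw [Subgroup.coe_pow, Subgroup.coe_one] at h0
        exact h0
      exact orderOf_eq_one_iff.mp (Nat.eq_one_of_dvd_coprimes hcop
        (orderOf_dvd_of_pow_eq_one h1) (orderOf_dvd_of_pow_eq_one hzm))
    rw [← hza, show z = 1 from Subtype.ext hz1, one_mul]
    exact ha
  haveI : K.Normal := Subgroup.Normal.comap inferInstance _
  haveI : (A.map K.subtype).Normal := by
    refine ⟨?_⟩
    rintro _ ⟨a, ha, rfl⟩ b
    refine ⟨⟨b * a * b⁻¹, Subgroup.Normal.conj_mem ‹K.Normal› _ a.2 b⟩, (hiff _).mpr ?_, rfl⟩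
    show (b * (a : G) * b⁻¹) ^ m = 1
    rw [conj_pow, (hiff a).mp ha, mul_one, mul_inv_cancel]
  have hodd : Odd (Nat.card (A.map K.subtype)) := by
    rw [Subgroup.card_map_of_injective K.subtype_injective, hAcard]
    exact hmo
  have hA1 : A.map K.subtype = ⊥ := le_bot_iff.mp (hO ▸ Cores.le_oddCore hodd)
  rw [Subgroup.card_map_of_injective K.subtype_injective |>.symm, hA1, Subgroup.card_bot] at hAcard
  exact Subgroup.eq_bot_of_card_eq _ hAcard.symm

/-- A cyclic `O₂(G)` is central. -/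
theorem le_center (hI : CyclicMeets G) (htwo : ∀ S : Sylow 2 G, ∃ T, T ≠ S) (hO : oddCore G = ⊥)
    [IsCyclic Q] (hQ2 : IsPGroup 2 Q) (hQ : pCore 2 G ≤ Q) : Q ≤ Subgroup.center G := by
  haveI : Fact (Nat.Prime 2) := ⟨Nat.prime_two⟩
  suffices hC : Subgroup.centralizer (Q : Set G) = ⊤ from fun w hw =>
    Subgroup.mem_center_iff.2 fun g =>
      (Subgroup.mem_centralizer_iff.1 (hC.ge (Subgroup.mem_top g)) w hw).symm
  obtain ⟨S⟩ := (inferInstance : Nonempty (Sylow 2 G))
  set C := Subgroup.centralizer (Q : Set G) with hC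
  haveI hCn : C.Normal := ⟨fun x hx g => mem_centralizer_conj hx g⟩
  by_contra hCtop
  have h4 : 2 < Nat.card Q := by
    by_contra h
    refine hCtop (eq_top_iff.2 fun g _ => Subgroup.mem_centralizer_iff.2 fun w hw => ?_)
    have hgw : g * w * g⁻¹ ∈ Q := conj_mem_Q hw g
    rcases eq_or_ne w 1 with rfl | hw1
    · simp
    · have hsub : ({1, ⟨w, hw⟩, ⟨g * w * g⁻¹, hgw⟩} : Set Q).ncard ≤ 2 :=
        (Set.ncard_le_card _).trans (by omega)
      by_contra hne
      rw [Set.ncard_eq_three.2 ⟨1, _, _, fun e => hw1 (congrArg Subtype.val e).symm,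
        fun e => hw1 (by simpa using (congrArg Subtype.val e).symm),
        fun e => hne ((mul_inv_eq_iff_eq_mul.1 (congrArg Subtype.val e).symm).symm), rfl⟩] at hsub
      omega
  have hsq : ∀ a : G, a * a ∈ Q → a ∈ C := fun a ha =>
    centralizer_eq_top_of_sq hI htwo hO hQ2 h4 hQ ha
  -- a complement of `S` in its normalizer
  set M := Subgroup.normalizer ((S : Subgroup G) : Set G) with hM
  haveI : ((S : Subgroup G).subgroupOf M).Normal := Subgroup.normal_in_normalizer
  have hcardS : Nat.card ((S : Subgroup G).subgroupOf M) = Nat.card S :=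
    Nat.card_congr (Subgroup.subgroupOfEquivOfLe Subgroup.le_normalizer).toEquiv
  have hodd : Odd ((S : Subgroup G).subgroupOf M).index := by
    rw [← Nat.not_even_iff_odd, even_iff_two_dvd]
    exact fun h => S.not_dvd_index (h.trans (Subgroup.relIndex_dvd_index_of_le Subgroup.le_normalizer))
  obtain ⟨j, hj⟩ := IsPGroup.iff_card.1 S.2
  obtain ⟨R₀, hR₀⟩ := Subgroup.exists_right_complement'_of_coprime
    (N := (S : Subgroup G).subgroupOf M)
    (by rw [hcardS, hj]; exact (Nat.coprime_two_left.mpr hodd).pow_left j)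
  have hRodd : Odd (Nat.card R₀) := by
    rwa [← hR₀.symm.index_eq_card]
  set R := R₀.map M.subtype
  have hRcard : Nat.card R = Nat.card R₀ := Subgroup.card_map_of_injective M.subtype_injective
  have hRC : R ≤ C := fun r hr => mem_centralizer_of_odd hQ2
    (Odd.of_dvd_nat hRodd (hRcard ▸ Subgroup.orderOf_dvd_natCard R hr))
  have hdec := CoprimeAction.commutator_sup_centralizer (A := R) (K := (S : Subgroup G))
    (Subgroup.map_subtype_le R₀)
    (by rw [hj, hRcard]; exact ((Nat.coprime_two_left.mpr hRodd).pow_left j).symm)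
    (Or.inr (by haveI := S.2.isNilpotent; infer_instance))
  obtain ⟨x, ⟨hxS, hxR⟩, hxC⟩ :
      ∃ x ∈ (S : Subgroup G) ⊓ Subgroup.centralizer (R : Set G), x ∉ C := by
    by_contra hall
    push Not at hall
    refine hCtop (eq_top_of_sylow_le hQ2 S (hdec.ge.trans (sup_le ?_ hall)))
    exact Subgroup.commutator_le.2 fun s _ r hr => by
      rw [commutatorElement_def]
      exact mul_mem (hCn.conj_mem r (hRC hr) s) (inv_mem (hRC hr))
  have hQC : Q ≤ C := fun w hw =>
    Subgroup.mem_centralizer_iff.2 fun w' hw' => commute_of_mem_cyclic hw' hw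
  classical
  have hex : ∃ m : ℕ, x ^ 2 ^ m ∈ Q := by
    obtain ⟨k, hk⟩ := S.2 ⟨x, hxS⟩
    exact ⟨k, by rw [show x ^ 2 ^ k = 1 from congrArg Subtype.val hk]; exact one_mem _⟩
  obtain ⟨m, hm⟩ : ∃ m, Nat.find hex = m + 1 :=
    Nat.exists_eq_succ_of_ne_zero fun h => hxC (hQC (by
      have := Nat.find_spec hex
      rw [h, pow_zero, pow_one] at this
      exact this))
  set e := x ^ 2 ^ m with he
  have he2 : e * e ∈ Q := by
    have := hm ▸ Nat.find_spec hex
    rwa [pow_succ, pow_mul, pow_two] at this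
  have heQ : e ∉ Q := fun h => Nat.find_min hex (by omega) h
  have heC : e ∈ C := hsq e he2
  have heS : e ∈ (S : Subgroup G) := pow_mem hxS _
  have hnc : Noncyc Q e := by
    refine noncyc_of_isSq hQ2 h4 heC heQ ?_
    by_contra hns
    obtain ⟨q, hq⟩ := exists_gen (Q := Q)
    obtain ⟨i, hi⟩ := Subgroup.mem_zpowers_iff.1 (hq.symm ▸ he2 : e * e ∈ Subgroup.zpowers q)
    rcases Int.even_or_odd i with ⟨d, rfl⟩ | ho
    · exact hns ⟨q ^ d, zpow_mem (hq ▸ Subgroup.mem_zpowers q) d, by rw [← zpow_add, hi]⟩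
    · obtain ⟨L, hL⟩ := hQ2 ⟨q, hq ▸ Subgroup.mem_zpowers q⟩
      have hqx : q ∈ Subgroup.zpowers x := mem_of_zpow_odd_mem ho
        (by simpa using congrArg Subtype.val hL)
        (hi ▸ mul_mem (pow_mem (Subgroup.mem_zpowers x) _) (pow_mem (Subgroup.mem_zpowers x) _))
      refine hxC (Subgroup.mem_centralizer_iff.2 fun w hw => ?_)
      exact commute_of_mem_cyclic (D := Subgroup.zpowers x)
        ((hq ▸ Subgroup.zpowers_le.2 hqx : Q ≤ Subgroup.zpowers x) hw) (Subgroup.mem_zpowers x)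
  -- all such elements of `S` are conjugate to `e` in `S`, modulo `Q`
  have hclass : ∀ b ∈ (S : Subgroup G), b ∈ C → b * b ∈ Q → Noncyc Q b →
      ∃ s ∈ (S : Subgroup G), b⁻¹ * (s * e * s⁻¹) ∈ Q := by
    intro b hbS hbC hb2 hb
    obtain ⟨T, hT⟩ := htwo S
    obtain ⟨g₁, rfl⟩ := MulAction.exists_smul_eq G S T
    obtain ⟨h, hh⟩ := exists_conj_mod hI hQ2 h4 (mem_centralizer_conj heC g₁) (sq_conj_mem he2 g₁)
      (noncyc_conj hnc g₁) hbC hb2 hb (mem_of_conj_sylow g₁ heS) hbS hT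
    rw [show h * (g₁ * e * g₁⁻¹) * h⁻¹ = (h * g₁) * e * (h * g₁)⁻¹ by group] at hh
    set g := h * g₁
    have hbg : g * e * g⁻¹ ∈ (S : Subgroup G) := by
      have := mul_mem hbS (le_sylow hQ2 S hh)
      rwa [mul_inv_cancel_left] at this
    have hgS : g • S = S := eq_of_noncyclic hI (noncyc_conj hnc g)
      (sup_zpowers_le hQ2 (mem_of_conj_sylow g heS)) (sup_zpowers_le hQ2 hbg)
    have hgM : g ∈ M := Sylow.smul_eq_iff_mem_normalizer.1 hgS
    obtain ⟨⟨⟨s, hs⟩, ⟨r, hr⟩⟩, hsr : s * r = (⟨g, hgM⟩ : M)⟩ := hR₀.2 ⟨g, hgM⟩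
    refine ⟨s, hs, ?_⟩
    have hre : (r : G) * e * (r : G)⁻¹ = e := by
      rw [Subgroup.mem_centralizer_iff.1 (pow_mem hxR (2 ^ m)) r ⟨r, hr, rfl⟩,
        mul_inv_cancel_right]
    have hg : (s : G) * r = g := congrArg Subtype.val hsr
    convert hh using 1
    rw [← hg, show (s : G) * r * e * ((s : G) * r)⁻¹ = s * ((r : G) * e * (r : G)⁻¹) * (s : G)⁻¹ by
      group, hre]
  -- `e` is central in `S / Q`
  set π := QuotientGroup.mk' Q with hπ
  have hπiff : ∀ {y : G}, π y = 1 ↔ y ∈ Q := fun {y} => QuotientGroup.eq_one_iff y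
  have hπeq : ∀ {y y' : G}, π y = π y' ↔ y⁻¹ * y' ∈ Q := fun {y y'} => QuotientGroup.eq
  set Sb := S.mapSurjective (QuotientGroup.mk'_surjective Q) with hSb
  have hmem : ∀ {y : G}, π y ∈ (Sb : Subgroup (G ⧸ Q)) → y ∈ (S : Subgroup G) := fun {y} hy => by
    obtain ⟨s, hs, hsy⟩ := hy
    have := mul_mem hs (le_sylow hQ2 S (hπeq.1 hsy))
    rwa [mul_inv_cancel_left] at this
  have hebS : π e ∈ (Sb : Subgroup (G ⧸ Q)) := ⟨e, heS, rfl⟩
  haveI := Sb.2.isNilpotent
  have hclassb : ∀ u : (Sb : Subgroup (G ⧸ Q)), ∀ y : G, π y = u → y ∈ C → y * y ∈ Q →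
      Noncyc Q y → IsConj (⟨π e, hebS⟩ : (Sb : Subgroup (G ⧸ Q))) u := by
    intro u y hy hyC hy2 hync
    obtain ⟨s, hs, hse⟩ := hclass y (hmem (hy ▸ u.2)) hyC hy2 hync
    refine isConj_iff.2 ⟨⟨π s, s, hs, rfl⟩, Subtype.ext ?_⟩
    show π s * π e * (π s)⁻¹ = u
    rw [← hy, ← map_inv, ← map_mul, ← map_mul]
    exact (hπeq.2 hse).symm
  have hcentre : (⟨π e, hebS⟩ : (Sb : Subgroup (G ⧸ Q))) ∈
      Subgroup.center (Sb : Subgroup (G ⧸ Q)) := by
    refine mem_center_of_class_closed (Subtype.ext ?_) ?_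
    · show π e * π e = 1
      rw [← map_mul]
      exact hπiff.2 he2
    · intro u v hu hv huv hcomm
      obtain ⟨⟨_, cu, hcu, rfl⟩, hu⟩ := isConj_iff.1 hu
      obtain ⟨⟨_, cv, hcv, rfl⟩, hv⟩ := isConj_iff.1 hv
      have hu' : (u : G ⧸ Q) = π (cu * e * cu⁻¹) := by
        rw [← hu, map_mul, map_mul, map_inv]; rfl
      have hv' : (v : G ⧸ Q) = π (cv * e * cv⁻¹) := by
        rw [← hv, map_mul, map_mul, map_inv]; rfl
      set u₀ := cu * e * cu⁻¹
      set v₀ := cv * e * cv⁻¹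
      have hu0 := mem_centralizer_conj (Q := Q) heC cu
      have hv0 := mem_centralizer_conj (Q := Q) heC cv
      have hcq : v₀⁻¹ * (u₀ * v₀ * u₀⁻¹) ∈ Q := by
        refine hπeq.1 ?_
        rw [map_mul π (u₀ * v₀), map_mul π u₀ v₀, map_inv π u₀, ← hu', ← hv']
        have := congrArg Subtype.val hcomm
        simp only [Subgroup.coe_mul] at this
        rw [this, mul_inv_cancel_right]
      have hsqu := isSq_of_noncyc hQ2 (sq_conj_mem he2 cu) (noncyc_conj hnc cu)
      have hsqv := isSq_of_noncyc hQ2 (sq_conj_mem he2 cv) (noncyc_conj hnc cv)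
      have huv2 := isSq_mul_sq hQ2 h4 hu0 hv0 hcq (by rw [mul_inv_cancel_left]) hsqu hsqv
      have huvQ : (u₀ * v₀) * (u₀ * v₀) ∈ Q := by
        obtain ⟨w, hw, e'⟩ := huv2
        exact e' ▸ mul_mem hw hw
      refine hclassb (u * v) (u₀ * v₀) ?_ (mul_mem hu0 hv0) huvQ
        (noncyc_of_isSq hQ2 h4 (mul_mem hu0 hv0) (fun h => huv ?_) huv2)
      · rw [map_mul, ← hu', ← hv']; rfl
      · refine Subtype.ext ?_
        have h1 : (u : G ⧸ Q) * v = 1 := by rw [hu', hv', ← map_mul]; exact hπiff.2 h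
        have h2 : (u : G ⧸ Q) * u = 1 := by
          rw [hu', ← map_mul]; exact hπiff.2 (sq_conj_mem he2 cu)
        exact mul_left_cancel (h2.trans h1.symm)
  -- so `eQ` is isolated, hence central, in `G / Q`
  have heb2 : orderOf (π e) = 2 := Involutions.orderOf_eq_two_iff.2
    ⟨by rw [← map_mul]; exact hπiff.2 he2, fun h => heQ (hπiff.1 h)⟩
  have hiso : ∀ g : G ⧸ Q, g * π e * g⁻¹ ∈ (Sb : Subgroup (G ⧸ Q)) → g * π e * g⁻¹ = π e := by
    intro g hg
    obtain ⟨g, rfl⟩ := QuotientGroup.mk'_surjective Q g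
    obtain ⟨c, hc⟩ := isConj_iff.1 (hclassb ⟨_, hg⟩ (g * e * g⁻¹)
      (by show π (g * e * g⁻¹) = π g * π e * (π g)⁻¹
          rw [map_mul, map_mul, map_inv])
      (mem_centralizer_conj heC g) (sq_conj_mem he2 g) (noncyc_conj hnc g))
    rw [Subgroup.mem_center_iff.1 hcentre c, mul_inv_cancel_right] at hc
    exact (congrArg Subtype.val hc).symm
  have hcz := Involutions.mem_center_of_isolated Sb heb2 hiso (oddCore_quotient hO hQ2)
  haveI hNn : ((Subgroup.zpowers (π e)).comap π).Normal := by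
    haveI : (Subgroup.zpowers (π e)).Normal :=
      ⟨fun y hy g => by
        obtain ⟨i, rfl⟩ := Subgroup.mem_zpowers_iff.1 hy
        rw [Subgroup.mem_center_iff.1 (zpow_mem hcz i) g, mul_inv_cancel_right]
        exact zpow_mem (Subgroup.mem_zpowers _) i⟩
    exact Subgroup.Normal.comap inferInstance _
  have hN2 : IsPGroup 2 ((Subgroup.zpowers (π e)).comap π) :=
    IsPGroup.comap_of_ker_isPGroup
      (IsPGroup.of_card (n := 1) (by rw [Nat.card_zpowers, heb2, pow_one])) π
      (by rw [hπ, QuotientGroup.ker_mk']; exact hQ2)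
  exact heQ (hQ (Cores.le_pCore hN2 (Subgroup.mem_zpowers (π e))))

end CfsgLib.CyclicInter
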