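import Cfsg.Agent.Lib.CyclicInter.Squares
import Cfsg.Agent.Lib.Cores.PCore

/-!
Two elements with noncyclic `Q⟨b⟩` in different Sylow 2-subgroups, both centralising `Q`, are
conjugate modulo `Q`; an element outside `C(Q)` and one inside are never so placed.
-/

set_option autoImplicit false
set_option linter.style.haveILetI false
set_option linter.unusedSectionVars false

namespace CfsgLib.CyclicInter

open Cfsg

universe u

variable {G : Type u} [Group G] [Finite G] {Q : Subgroup G} [Q.Normal]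

theorem le_sylow (hQ2 : IsPGroup 2 Q) (S : Sylow 2 G) : Q ≤ (S : Subgroup G) :=
  haveI : Fact (Nat.Prime 2) := ⟨Nat.prime_two⟩
  (Cores.le_pCore hQ2).trans (Cores.pCore_le_sylow S)

theorem conj_mem_Q {x : G} (hx : x ∈ Q) (g : G) : g * x * g⁻¹ ∈ Q :=
  Subgroup.Normal.conj_mem ‹_› x hx g

theorem mem_centralizer_conj {x : G} (hx : x ∈ Subgroup.centralizer (Q : Set G)) (g : G) :
    g * x * g⁻¹ ∈ Subgroup.centralizer (Q : Set G) := by
  refine Subgroup.mem_centralizer_iff.2 fun w hw => ?_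
  have h := Subgroup.mem_centralizer_iff.1 hx (g⁻¹ * w * g) (by simpa using conj_mem_Q hw g⁻¹)
  calc w * (g * x * g⁻¹) = g * ((g⁻¹ * w * g) * x) * g⁻¹ := by group
    _ = g * (x * (g⁻¹ * w * g)) * g⁻¹ := by rw [h]
    _ = g * x * g⁻¹ * w := by group

theorem sq_conj_mem {a : G} (ha : a * a ∈ Q) (g : G) :
    (g * a * g⁻¹) * (g * a * g⁻¹) ∈ Q := by
  rw [show (g * a * g⁻¹) * (g * a * g⁻¹) = g * (a * a) * g⁻¹ by group]
  exact conj_mem_Q ha g

theorem noncyc_of_not_mem_centralizer {a : G} (ha : a ∉ Subgroup.centralizer (Q : Set G)) :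
    Noncyc Q a := fun h => ha <| Subgroup.mem_centralizer_iff.2 fun w hw =>
  haveI := h
  commute_of_mem_cyclic (D := Q ⊔ Subgroup.zpowers a) (Subgroup.mem_sup_left hw)
    (Subgroup.mem_sup_right (Subgroup.mem_zpowers a))

theorem cyclic_le_centralizer {D : Subgroup G} [IsCyclic D] (h : Q ≤ D) {x : G} (hx : x ∈ D) :
    x ∈ Subgroup.centralizer (Q : Set G) :=
  Subgroup.mem_centralizer_iff.2 fun _ hw => commute_of_mem_cyclic (h hw) hx

theorem mem_normalizer_Q (g : G) : g ∈ Subgroup.normalizer (Q : Set G) := by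
  rw [Subgroup.normalizer_eq_top]; trivial

theorem sup_zpowers_le (hQ2 : IsPGroup 2 Q) {a : G} {S : Sylow 2 G} (haS : a ∈ (S : Subgroup G)) :
    Q ⊔ Subgroup.zpowers a ≤ (S : Subgroup G) :=
  sup_le (le_sylow hQ2 S) (Subgroup.zpowers_le.2 haS)

theorem sylow_eq_of_outside (hI : CyclicMeets G) [IsCyclic Q] (hQ2 : IsPGroup 2 Q) {a b : G}
    (haC : a ∉ Subgroup.centralizer (Q : Set G)) (ha2 : a * a ∈ Q)
    (hbC : b ∈ Subgroup.centralizer (Q : Set G)) (hb2 : b * b ∈ Q) (hb : Noncyc Q b)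
    {S T : Sylow 2 G} (haS : a ∈ (S : Subgroup G)) (hbT : b ∈ (T : Subgroup G)) : S = T := by
  by_contra hne
  obtain ⟨D, hQD, -, hDc, -, h, δ, hδ, e⟩ := exists_conj_mem_mul hI _ Q rfl le_rfl hQ2
    inferInstance a b S T (mem_normalizer_Q a) (mem_normalizer_Q b) ha2 hb2
    (noncyc_of_not_mem_centralizer haC) hb (sup_zpowers_le hQ2 haS) (sup_zpowers_le hQ2 hbT) hne
  haveI := hDc
  refine haC ?_
  have h1 := mem_centralizer_conj (mul_mem hbC (cyclic_le_centralizer hQD hδ)) h⁻¹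
  rwa [← e, show h⁻¹ * (h * a * h⁻¹) * h⁻¹⁻¹ = a by group] at h1

/-- In a cyclic 2-group `D ≥ Q` normalised by `b ∈ C(Q)`, if `(bδ)² ∈ Q` then `δ² ∈ Q`. -/
theorem sq_mem_of_mul_sq (hQ2 : IsPGroup 2 Q) (h4 : 2 < Nat.card Q) {D : Subgroup G} [IsCyclic D]
    (hD2 : IsPGroup 2 D) (hQD : Q ≤ D) {b δ : G} (hbn : b ∈ Subgroup.normalizer (D : Set G))
    (hbC : b ∈ Subgroup.centralizer (Q : Set G)) (hb2 : b * b ∈ Q) (hδ : δ ∈ D)
    (h2 : (b * δ) * (b * δ) ∈ Q) : δ * δ ∈ Q := by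
  haveI : IsCyclic Q := isCyclic_of_le hQD
  obtain ⟨v, hv⟩ := exists_gen (Q := D)
  have hvD : v ∈ D := hv ▸ Subgroup.mem_zpowers v
  obtain ⟨r, hr⟩ := Subgroup.mem_zpowers_iff.1
    (hv.symm ▸ (Subgroup.mem_normalizer_iff.1 hbn v).1 hvD : b * v * b⁻¹ ∈ Subgroup.zpowers v)
  obtain ⟨i, rfl⟩ := Subgroup.mem_zpowers_iff.1 (hv.symm ▸ hδ : δ ∈ Subgroup.zpowers v)
  obtain ⟨q, hq⟩ := exists_gen (Q := Q)
  have hqQ : q ∈ Q := hq ▸ Subgroup.mem_zpowers q
  obtain ⟨j, hj⟩ := Subgroup.mem_zpowers_iff.1 (hv.symm ▸ hQD hqQ : q ∈ Subgroup.zpowers v)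
  have hpow : ∀ k : ℤ, b * v ^ k * b⁻¹ = v ^ (r * k) := fun k => by
    rw [zpow_mul, hr]; exact conj_zpow.symm
  have hqr : q ^ (r - 1) = 1 := by
    rw [zpow_sub_one, ← hj, ← zpow_mul, mul_comm j r, ← hpow, hj,
      ← Subgroup.mem_centralizer_iff.1 hbC q hqQ, mul_inv_cancel_right, mul_inv_cancel]
  rw [← orderOf_dvd_iff_zpow_eq_one, ← Nat.card_zpowers, hq] at hqr
  obtain ⟨d, hd⟩ := (Int.natCast_dvd_natCast.2 (four_dvd_card hQ2 h4)).trans hqr
  have hodd : Odd (2 * d + 1) := odd_two_mul_add_one d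
  have hmem : (v ^ i * v ^ i) ^ (2 * d + 1) ∈ Q := by
    have e : (b * v ^ i) * (b * v ^ i) = (b * v ^ i * b⁻¹) * v ^ i * (b * b) := by
      have hc : Commute (v ^ i) (b * b) := by
        have := cyclic_le_centralizer hQD (zpow_mem hvD i)
        exact (Subgroup.mem_centralizer_iff.1 this _ hb2).symm
      rw [mul_assoc _ (v ^ i) (b * b), hc.eq]
      group
    have h3 := mul_mem h2 (inv_mem hb2)
    rw [e, mul_inv_cancel_right, hpow, ← zpow_add] at h3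
    rw [← zpow_add, ← zpow_mul]
    convert h3 using 2
    push_cast at hd
    linear_combination (-i) * hd
  obtain ⟨L, hL⟩ := hD2 ⟨v ^ i * v ^ i, mul_mem hδ hδ⟩
  exact mem_of_zpow_odd_mem hodd (by simpa using congrArg Subtype.val hL) hmem

theorem exists_conj_mod (hI : CyclicMeets G) [IsCyclic Q] (hQ2 : IsPGroup 2 Q)
    (h4 : 2 < Nat.card Q) {a b : G}
    (haC : a ∈ Subgroup.centralizer (Q : Set G)) (ha2 : a * a ∈ Q) (ha : Noncyc Q a)
    (hbC : b ∈ Subgroup.centralizer (Q : Set G)) (hb2 : b * b ∈ Q) (hb : Noncyc Q b)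
    {S T : Sylow 2 G} (haS : a ∈ (S : Subgroup G)) (hbT : b ∈ (T : Subgroup G)) (hne : S ≠ T) :
    ∃ h : G, b⁻¹ * (h * a * h⁻¹) ∈ Q := by
  obtain ⟨D, hQD, hD2, hDc, hbn, h, δ, hδ, e⟩ := exists_conj_mem_mul hI _ Q rfl le_rfl hQ2
    inferInstance a b S T (mem_normalizer_Q a) (mem_normalizer_Q b) ha2 hb2 ha hb
    (sup_zpowers_le hQ2 haS) (sup_zpowers_le hQ2 hbT) hne
  haveI := hDc
  refine ⟨h, ?_⟩
  rw [e, inv_mul_cancel_left]
  by_contra hδQ
  have h2 : (b * δ) * (b * δ) ∈ Q := e ▸ sq_conj_mem ha2 h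
  have hδ2 := sq_mem_of_mul_sq hQ2 h4 hD2 hQD hbn hbC hb2 hδ h2
  have hδC := cyclic_le_centralizer hQD hδ
  have hc : δ⁻¹ * (b * δ * b⁻¹) ∈ Q := by
    have e1 : δ⁻¹ * (b * δ * b⁻¹) = (δ * δ)⁻¹ * ((b * δ) * (b * δ)) * (b * b)⁻¹ := by
      have h1 : Commute (δ * δ) b := Subgroup.mem_centralizer_iff.1 hbC _ hδ2
      have h3 : (b * b) * δ = δ * (b * b) := Subgroup.mem_centralizer_iff.1 hδC _ hb2
      calc δ⁻¹ * (b * δ * b⁻¹) = (δ * δ)⁻¹ * (δ * (b * δ) * b⁻¹) := by group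
        _ = (δ * δ)⁻¹ * (b * δ * (b * δ) * (b * b)⁻¹) := by
          congr 1
          have h6 : δ * (b * δ) * b⁻¹ = b * δ * (b * δ) * (b * b)⁻¹ := by
            have hDcomm : Commute δ (b * δ * b⁻¹) :=
              commute_of_mem_cyclic hδ ((Subgroup.mem_normalizer_iff.1 hbn δ).1 hδ)
            calc δ * (b * δ) * b⁻¹ = δ * (b * δ * b⁻¹) := by group
              _ = (b * δ * b⁻¹) * δ := hDcomm.eq
              _ = (b * δ * b⁻¹) * ((b * b) * δ * (b * b)⁻¹) := by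
                rw [h3, mul_inv_cancel_right]
              _ = b * δ * (b * δ) * (b * b)⁻¹ := by group
          exact h6
        _ = _ := by simp only [mul_assoc]
    rw [e1]
    exact mul_mem (mul_mem (inv_mem hδ2) h2) (inv_mem hb2)
  have hbsq := isSq_of_noncyc hQ2 hb2 hb
  have hnc : Noncyc Q (b * δ) := e ▸ noncyc_conj ha h
  have hbd := isSq_of_noncyc hQ2 h2 hnc
  obtain ⟨hcc, e2⟩ := mul_sq hbC hδC hδ2 hc (by rw [mul_inv_cancel_left])
  rw [e2] at hbd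
  have : IsSq Q (δ * δ) := by
    have := isSq_mul (isSq_mul (isSq_inv hbsq) hbd) (isSq_of_mul_self hQ2 h4 hc hcc)
    simpa [mul_assoc] using this
  refine noncyc_of_isSq hQ2 h4 hδC hδQ this ?_
  exact isCyclic_of_le (sup_le hQD (Subgroup.zpowers_le.2 hδ))

end CfsgLib.CyclicInter
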