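import Cfsg.Agent.Lib.CyclicInter.Center
import Cfsg.Agent.Lib.Cores.Fitting
import Cfsg.Agent.Lib.OddOrderApps.HallExtension

/-!
Given the odd order theorem: in a nonsolvable group whose distinct Sylow 2-subgroups meet in cyclic
groups, a solvable normal subgroup maps onto a central cyclic 2-subgroup of `G / O(G)`.
-/

set_option autoImplicit false
set_option linter.style.haveILetI false
set_option linter.unusedSectionVars false

namespace CfsgLib.CyclicInter

open Cfsg

universe u

variable {G : Type u} [Group G] [Finite G]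

theorem isSolvable_of_quotient (N : Subgroup G) [N.Normal] (h1 : Group.IsSolvable N)
    (h2 : Group.IsSolvable (G ⧸ N)) : Group.IsSolvable G :=
  haveI := h1
  haveI := h2
  solvable_of_ker_le_range N.subtype (QuotientGroup.mk' N)
    (by rw [QuotientGroup.ker_mk', Subgroup.range_subtype])

theorem exists_other_sylow (hFT : OddOrderApps.OddOrder.{u}) (hns : ¬ Group.IsSolvable G)
    (S : Sylow 2 G) : ∃ T : Sylow 2 G, T ≠ S := by
  haveI : Fact (Nat.Prime 2) := ⟨Nat.prime_two⟩
  by_contra h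
  push Not at h
  haveI : (S : Subgroup G).Normal := by
    rw [← Subgroup.normalizer_eq_top_iff, eq_top_iff]
    exact fun g _ => Sylow.smul_eq_iff_mem_normalizer.1 (h (g • S))
  have hS : Group.IsSolvable (S : Subgroup G) := by
    haveI := S.2.isNilpotent
    infer_instance
  refine hns (isSolvable_of_quotient (S : Subgroup G) hS (hFT _ ?_))
  rw [← Subgroup.index_eq_card, ← Nat.not_even_iff_odd, even_iff_two_dvd]
  exact S.not_dvd_index

theorem pCore_eq_bot_of_odd (hO : oddCore G = ⊥) {p : ℕ} (hp : p.Prime) (hp2 : p ≠ 2) :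
    pCore p G = ⊥ := by
  haveI : Fact p.Prime := ⟨hp⟩
  rw [eq_bot_iff, ← hO]
  refine Cores.le_oddCore ?_
  obtain ⟨n, hn⟩ := IsPGroup.iff_card.1 (Cores.isPGroup_pCore p G)
  rw [hn]
  exact (hp.odd_of_ne_two hp2).pow

/-- The solvable radical when `O(G) = 1`. -/
theorem le_pCore_of_isSolvable (hI : CyclicMeets G) (htwo : ∀ S : Sylow 2 G, ∃ T, T ≠ S)
    (hO : oddCore G = ⊥) (N : Subgroup G) [N.Normal] (hN : Group.IsSolvable N) :
    IsCyclic ↥(pCore 2 G) ∧ N ≤ pCore 2 G := by
  haveI : Fact (Nat.Prime 2) := ⟨Nat.prime_two⟩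
  set Q := pCore 2 G with hQ
  obtain ⟨S⟩ := (inferInstance : Nonempty (Sylow 2 G))
  obtain ⟨T, hT⟩ := htwo S
  haveI := hI S T hT.symm
  haveI hQc : IsCyclic Q :=
    isCyclic_of_le (le_inf (Cores.pCore_le_sylow S) (Cores.pCore_le_sylow T))
  have hQ2 : IsPGroup 2 Q := Cores.isPGroup_pCore 2 G
  refine ⟨hQc, ?_⟩
  haveI hCn : (Subgroup.centralizer (Q : Set G)).Normal :=
    ⟨fun x hx g => mem_centralizer_conj hx g⟩
  set P := N ⊓ Subgroup.centralizer (Q : Set G)
  haveI : Group.IsSolvable P :=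
    haveI := hN
    CoprimeAction.isSolvable_of_le (inf_le_left : P ≤ N)
  haveI : (Cfsg.fittingSubgroup P).Characteristic := by
    rw [Subgroup.characteristic_iff_map_eq]
    exact fun e => Cores.map_fittingSubgroup_equiv e
  haveI := Cores.normal_map_subtype P (Cfsg.fittingSubgroup P)
  haveI := Cores.isNilpotent_fittingSubgroup (G := P)
  have hFQ : (Cfsg.fittingSubgroup P).map P.subtype ≤ Q := by
    refine (Cores.le_iSup_pCore (Cores.isNilpotent_map _ _)).trans (iSup_le fun p => ?_)
    rcases eq_or_ne (p : ℕ) 2 with h | h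
    · rw [h]
    · rw [pCore_eq_bot_of_odd hO (Nat.prime_of_mem_primeFactors p.2) h]
      exact bot_le
  have hPF : ∀ x : P, x ∈ Cfsg.fittingSubgroup P := fun x =>
    Cores.centralizer_fittingSubgroup_le (Subgroup.mem_centralizer_iff.2 fun y hy => Subtype.ext
      (Subgroup.mem_centralizer_iff.1 x.2.2 _ (hFQ (Subgroup.mem_map_of_mem _ hy))))
  have hN2 : IsPGroup 2 N := fun n => by
    obtain ⟨k, hk⟩ := exists_two_pow_mem_centralizer hQ2 (n : G)
    obtain ⟨m, hm⟩ := hQ2 ⟨(n : G) ^ 2 ^ k,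
      hFQ ⟨⟨_, pow_mem n.2 _, hk⟩, hPF _, rfl⟩⟩
    exact ⟨k + m, Subtype.ext (by
      rw [pow_add, pow_mul]; simpa using congrArg Subtype.val hm)⟩
  exact Cores.le_pCore hN2

/-- Cyclic intersections pass to the quotient by `O(G)`. -/
theorem cyclicMeets_quotient (hI : CyclicMeets G) (O : Subgroup G) [O.Normal]
    (hodd : Odd (Nat.card O)) : CyclicMeets (G ⧸ O) := by
  haveI : Fact (Nat.Prime 2) := ⟨Nat.prime_two⟩
  intro Sb Tb hne
  set π := QuotientGroup.mk' O
  set X := (Sb : Subgroup (G ⧸ O)) ⊓ (Tb : Subgroup (G ⧸ O))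
  -- a Sylow 2-subgroup of the preimage of `X` maps onto `X`
  obtain ⟨P⟩ := (inferInstance : Nonempty (Sylow 2 (X.comap π)))
  set P' := (P : Subgroup (X.comap π)).map (X.comap π).subtype
  have hP'2 : IsPGroup 2 P' := P.2.map _
  have hinj : ∀ R : Subgroup G, IsPGroup 2 R → Nat.card (R.map π) = Nat.card R := fun R hR => by
    obtain ⟨n, hn⟩ := IsPGroup.iff_card.1 hR
    have hd : R ⊓ O = ⊥ := Subgroup.inf_eq_bot_of_coprime (by
      rw [hn]; exact (Nat.coprime_two_left.mpr hodd).pow_left n)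
    refine Nat.card_congr (Equiv.ofBijective
      (fun x : R => (⟨π x, Subgroup.mem_map_of_mem π x.2⟩ : R.map π)) ⟨fun x y h => ?_, ?_⟩).symm
    · have h' : (x : G)⁻¹ * y ∈ R ⊓ O :=
        ⟨R.mul_mem (R.inv_mem x.2) y.2, QuotientGroup.eq.1 (congrArg Subtype.val h)⟩
      rw [hd, Subgroup.mem_bot, inv_mul_eq_one] at h'
      exact Subtype.ext h'
    · rintro ⟨_, x, hx, rfl⟩
      exact ⟨⟨x, hx⟩, rfl⟩
  have hlift : ∀ (R : Sylow 2 (G ⧸ O)), X ≤ (R : Subgroup (G ⧸ O)) →
      ∃ S : Sylow 2 G, P' ≤ (S : Subgroup G) ∧ (S : Subgroup G).map π = R := fun R hXR => by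
    have hPle : P' ≤ (R : Subgroup (G ⧸ O)).comap π :=
      (Subgroup.map_subtype_le _).trans (Subgroup.comap_mono hXR)
    obtain ⟨P₁, hP₁⟩ := (hP'2.comap_subtype (K := (R : Subgroup (G ⧸ O)).comap π)).exists_le_sylow
    set P₁' := (P₁ : Subgroup ((R : Subgroup (G ⧸ O)).comap π)).map
      ((R : Subgroup (G ⧸ O)).comap π).subtype
    obtain ⟨S, hS⟩ := (P₁.2.map ((R : Subgroup (G ⧸ O)).comap π).subtype).exists_le_sylow
    have hPP₁ : P' ≤ P₁' := by
      have := Subgroup.map_mono (f := ((R : Subgroup (G ⧸ O)).comap π).subtype) hP₁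
      rwa [Subgroup.map_comap_eq, Subgroup.range_subtype,
        inf_eq_right.2 hPle] at this
    refine ⟨S, hPP₁.trans hS, ?_⟩
    have hSR : Nat.card R = Nat.card S := by
      rw [← hinj _ S.2]
      have := (S.mapSurjective (QuotientGroup.mk'_surjective O)).card_eq_multiplicity
      rw [Sylow.coe_mapSurjective] at this
      rw [R.card_eq_multiplicity, this]
    have hcardP₁ : Nat.card P₁' = Nat.card S := by
      rw [Subgroup.card_map_of_injective (Subgroup.subtype_injective _), P₁.card_eq_multiplicity,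
        S.card_eq_multiplicity]
      congr 1
      rw [Cores.card_comap_mk', hSR, Nat.factorization_mul Nat.card_pos.ne' Nat.card_pos.ne']
      rw [S.card_eq_multiplicity]
      rw [Finsupp.add_apply, Nat.Prime.factorization_pow Nat.prime_two, Finsupp.single_eq_same,
        Nat.factorization_eq_zero_of_not_dvd fun h => (Nat.not_even_iff_odd.2 hodd) (even_iff_two_dvd.2 h),
        zero_add]
    have heq : P₁' = (S : Subgroup G) := Subgroup.eq_of_le_of_card_ge hS hcardP₁.ge
    refine Subgroup.eq_of_le_of_card_ge ?_ (by rw [hinj _ S.2, hSR])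
    rw [← heq]
    exact (Subgroup.map_mono (Subgroup.map_subtype_le _)).trans (Subgroup.map_comap_le π _)
  obtain ⟨S, hS, hSm⟩ := hlift Sb inf_le_left
  obtain ⟨T, hT, hTm⟩ := hlift Tb inf_le_right
  haveI : IsCyclic P' := by
    haveI := hI S T fun e => hne (Sylow.ext (by rw [← hSm, ← hTm, e]))
    exact isCyclic_of_le (le_inf hS hT)
  have hX : P'.map π = X := by
    refine Subgroup.eq_of_le_of_card_ge
      ((Subgroup.map_mono (Subgroup.map_subtype_le _)).trans (Subgroup.map_comap_le π X)) ?_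
    rw [hinj _ hP'2, Subgroup.card_map_of_injective (Subgroup.subtype_injective _),
      P.card_eq_multiplicity, Cores.card_comap_mk',
      Nat.factorization_mul Nat.card_pos.ne' Nat.card_pos.ne']
    obtain ⟨n, hn⟩ := IsPGroup.iff_card.1 (Sb.2.to_le (inf_le_left : X ≤ _))
    rw [Finsupp.add_apply, hn, Nat.Prime.factorization_pow Nat.prime_two, Finsupp.single_eq_same,
      Nat.factorization_eq_zero_of_not_dvd fun h => (Nat.not_even_iff_odd.2 hodd) (even_iff_two_dvd.2 h),
      zero_add]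
  rw [← hX]
  exact isCyclic_of_surjective (π.subgroupMap P') (π.subgroupMap_surjective P')

/-- The solvable radical modulo `O(G)`. -/
theorem solvable_normal_central (hFT : OddOrderApps.OddOrder.{u}) (hns : ¬ Group.IsSolvable G)
    (hC : CyclicMeets G) (N : Subgroup G) [N.Normal] (hN : Group.IsSolvable N) :
    IsCyclic ↥(N.map (QuotientGroup.mk' (oddCore G))) ∧
      IsPGroup 2 ↥(N.map (QuotientGroup.mk' (oddCore G))) ∧
      N.map (QuotientGroup.mk' (oddCore G)) ≤ Subgroup.center (G ⧸ oddCore G) := by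
  haveI : (oddCore G).Normal :=
    haveI := Cores.pPrimeCore_characteristic 2 G; inferInstance
  set π := QuotientGroup.mk' (oddCore G)
  have hO : oddCore (G ⧸ oddCore G) = ⊥ := Cores.pPrimeCore_quotient_pPrimeCore 2
  have hns' : ¬ Group.IsSolvable (G ⧸ oddCore G) := fun h =>
    hns (isSolvable_of_quotient _ (hFT _ Cores.odd_card_oddCore) h)
  have hI := cyclicMeets_quotient hC (oddCore G) Cores.odd_card_oddCore
  have htwo := exists_other_sylow hFT hns'
  haveI : (N.map π).Normal := Subgroup.Normal.map inferInstance π (QuotientGroup.mk'_surjective _)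
  have hNs : Group.IsSolvable (N.map π) :=
    haveI := hN
    solvable_of_surjective (π.subgroupMap_surjective N)
  obtain ⟨hQc, hle⟩ := le_pCore_of_isSolvable hI htwo hO (N.map π) hNs
  haveI := hQc
  exact ⟨isCyclic_of_le hle, (Cores.isPGroup_pCore 2 _).to_le hle,
    hle.trans (le_center hI htwo hO (Cores.isPGroup_pCore 2 _) le_rfl)⟩

end CfsgLib.CyclicInter
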