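import Cfsg.Agent.Lib.CyclicInter.Basic

/-!
Elements centralising a cyclic normal 2-subgroup `Q` of order at least four whose square lies in `Q`:
`Q⟨b⟩` is noncyclic exactly when `b²` is a square in `Q`.
-/

set_option autoImplicit false
set_option linter.style.haveILetI false
set_option linter.unusedSectionVars false

namespace CfsgLib.CyclicInter

open Cfsg

universe u

variable {G : Type u} [Group G] [Finite G] {Q : Subgroup G}

/-- `x` is a square in `Q`. -/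
def IsSq (Q : Subgroup G) (x : G) : Prop := ∃ w ∈ Q, x = w * w

theorem commute_Q [IsCyclic Q] {x y : G} (hx : x ∈ Q) (hy : y ∈ Q) : Commute x y :=
  commute_of_mem_cyclic hx hy

theorem isSq_mul [IsCyclic Q] {x y : G} (hx : IsSq Q x) (hy : IsSq Q y) : IsSq Q (x * y) := by
  obtain ⟨v, hv, rfl⟩ := hx
  obtain ⟨w, hw, rfl⟩ := hy
  exact ⟨v * w, mul_mem hv hw, ((commute_Q hw hv).mul_mul_mul_comm v w).symm⟩

theorem isSq_inv {x : G} (hx : IsSq Q x) : IsSq Q x⁻¹ := by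
  obtain ⟨v, hv, rfl⟩ := hx
  exact ⟨v⁻¹, inv_mem hv, mul_inv_rev v v⟩

/-- A cyclic 2-group element `w` of odd power index. -/
theorem mem_of_zpow_odd_mem {x : G} {o : ℤ} (ho : Odd o) {L : ℕ} (hx : x ^ (2 ^ L) = 1)
    (h : x ^ o ∈ Q) : x ∈ Q := by
  obtain ⟨a, b, hab⟩ : IsCoprime o ((2 : ℤ) ^ L) :=
    (((Int.prime_two.coprime_iff_not_dvd.2
      (Int.two_dvd_ne_zero.2 (Int.odd_iff.1 ho))) : IsCoprime (2 : ℤ) o).symm).pow_right
  have : x = (x ^ o) ^ a * (x ^ ((2 : ℕ) ^ L)) ^ b := by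
    rw [← zpow_natCast, ← zpow_mul, ← zpow_mul, ← zpow_add, Nat.cast_pow, Nat.cast_ofNat,
      mul_comm o a, mul_comm ((2 : ℤ) ^ L) b, hab, zpow_one]
  rw [this, hx, one_zpow, mul_one]
  exact zpow_mem h a

theorem exists_gen [IsCyclic Q] : ∃ q : G, Subgroup.zpowers q = Q := by
  obtain ⟨g, hg⟩ := IsCyclic.exists_generator (α := Q)
  refine ⟨g, le_antisymm (Subgroup.zpowers_le.2 g.2) fun y hy => ?_⟩
  obtain ⟨i, hi⟩ := Subgroup.mem_zpowers_iff.1 (hg ⟨y, hy⟩)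
  exact Subgroup.mem_zpowers_iff.2 ⟨i, by simpa using congrArg Subtype.val hi⟩

theorem four_dvd_card (hQ2 : IsPGroup 2 Q) (h4 : 2 < Nat.card Q) : 4 ∣ Nat.card Q := by
  haveI : Fact (Nat.Prime 2) := ⟨Nat.prime_two⟩
  obtain ⟨k, hk⟩ := IsPGroup.iff_card.1 hQ2
  match k, hk with
  | 0, hk => simp [hk] at h4
  | 1, hk => simp [hk] at h4
  | k + 2, hk => exact ⟨2 ^ k, by rw [hk]; ring⟩

theorem exists_involution (hQ2 : IsPGroup 2 Q) (h4 : 2 < Nat.card Q) :
    ∃ z ∈ Q, orderOf z = 2 := by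
  haveI : Fact (Nat.Prime 2) := ⟨Nat.prime_two⟩
  obtain ⟨⟨z, hz⟩, hz2⟩ := exists_prime_orderOf_dvd_card' (G := Q) 2
    ((show 2 ∣ 4 by norm_num).trans (four_dvd_card hQ2 h4))
  exact ⟨z, hz, (Subgroup.orderOf_mk z hz).symm.trans hz2⟩

theorem isSq_of_mul_self [IsCyclic Q] (hQ2 : IsPGroup 2 Q) (h4 : 2 < Nat.card Q) {c : G}
    (hc : c ∈ Q) (hcc : c * c = 1) : IsSq Q c := by
  obtain ⟨q, hq⟩ := exists_gen (Q := Q)
  obtain ⟨i, rfl⟩ := Subgroup.mem_zpowers_iff.1 (hq.symm ▸ hc : c ∈ Subgroup.zpowers q)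
  rw [← zpow_add, ← orderOf_dvd_iff_zpow_eq_one, ← Nat.card_zpowers, hq] at hcc
  obtain ⟨d, hd⟩ := (show ((4 : ℕ) : ℤ) ∣ i + i from
    (Int.natCast_dvd_natCast.2 (four_dvd_card hQ2 h4)).trans hcc)
  refine ⟨q ^ d, zpow_mem (hq ▸ Subgroup.mem_zpowers q) d, ?_⟩
  rw [← zpow_add]
  congr 1
  push_cast at hd
  omega

/-- `Q⟨b⟩` noncyclic forces `b²` to be a square in `Q`. -/
theorem isSq_of_noncyc [IsCyclic Q] (hQ2 : IsPGroup 2 Q) {b : G} (hb2 : b * b ∈ Q)
    (hb : Noncyc Q b) : IsSq Q (b * b) := by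
  by_contra hns
  obtain ⟨q, hq⟩ := exists_gen (Q := Q)
  obtain ⟨i, hi⟩ := Subgroup.mem_zpowers_iff.1 (hq.symm ▸ hb2 : b * b ∈ Subgroup.zpowers q)
  rcases Int.even_or_odd i with ⟨d, rfl⟩ | ho
  · exact hns ⟨q ^ d, zpow_mem (hq ▸ Subgroup.mem_zpowers q) d, by rw [← zpow_add, hi]⟩
  · refine hb ?_
    obtain ⟨L, hL⟩ := hQ2 ⟨q, hq ▸ Subgroup.mem_zpowers q⟩
    have hqb : q ∈ Subgroup.zpowers b :=
      mem_of_zpow_odd_mem ho (by simpa using congrArg Subtype.val hL)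
        (hi ▸ mul_mem (Subgroup.mem_zpowers b) (Subgroup.mem_zpowers b))
    have : Q ⊔ Subgroup.zpowers b = Subgroup.zpowers b :=
      sup_eq_right.2 (hq ▸ Subgroup.zpowers_le.2 hqb)
    rw [this]
    infer_instance

/-- If `b ∉ Q` centralises `Q` and `b²` is a square in `Q` then `Q⟨b⟩` is noncyclic. -/
theorem noncyc_of_isSq (hQ2 : IsPGroup 2 Q) (h4 : 2 < Nat.card Q) {b : G}
    (hbC : b ∈ Subgroup.centralizer (Q : Set G)) (hbQ : b ∉ Q) (hb : IsSq Q (b * b)) :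
    Noncyc Q b := by
  obtain ⟨w, hw, hww⟩ := hb
  obtain ⟨z, hz, hz2⟩ := exists_involution hQ2 h4
  intro hc
  have hcomm : Commute w b := Subgroup.mem_centralizer_iff.1 hbC w hw
  set u := b * w⁻¹ with hu
  have hu2 : orderOf u = 2 := by
    refine Involutions.orderOf_eq_two_iff.2 ⟨?_, fun e => hbQ ?_⟩
    · rw [hu, hcomm.inv_left.mul_mul_mul_comm b w⁻¹, hww, ← mul_inv_rev, mul_inv_cancel]
    · rwa [mul_inv_eq_one.1 e]
  have huX : u ∈ Q ⊔ Subgroup.zpowers b := mul_mem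
    (Subgroup.mem_sup_right (Subgroup.mem_zpowers b)) (Subgroup.mem_sup_left (inv_mem hw))
  have huQ : u ∈ Q := by
    classical
    by_contra huQ
    haveI := Fintype.ofFinite ↥(Q ⊔ Subgroup.zpowers b)
    set z' : ↥(Q ⊔ Subgroup.zpowers b) := ⟨z, Subgroup.mem_sup_left hz⟩
    set u' : ↥(Q ⊔ Subgroup.zpowers b) := ⟨u, huX⟩
    have hsub : ({1, z', u'} : Finset ↥(Q ⊔ Subgroup.zpowers b)) ⊆
        Finset.univ.filter (fun a => a ^ 2 = 1) := by
      intro a ha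
      simp only [Finset.mem_insert, Finset.mem_singleton] at ha
      simp only [Finset.mem_filter, Finset.mem_univ, true_and, pow_two]
      rcases ha with rfl | rfl | rfl
      · exact one_mul 1
      · exact Subtype.ext (Involutions.mul_self_eq_one hz2)
      · exact Subtype.ext (Involutions.mul_self_eq_one hu2)
    have hcard : ({1, z', u'} : Finset ↥(Q ⊔ Subgroup.zpowers b)).card = 3 := by
      refine Finset.card_eq_three.2 ⟨1, z', u', ?_, ?_, ?_, rfl⟩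
      · exact fun e => Involutions.ne_one hz2 (congrArg Subtype.val e).symm
      · exact fun e => Involutions.ne_one hu2 (congrArg Subtype.val e).symm
      · exact fun e => huQ (by rw [← show z = u from congrArg Subtype.val e]; exact hz)
    have := (Finset.card_le_card hsub).trans (IsCyclic.card_pow_eq_one_le (n := 2) two_pos)
    omega
  exact hbQ (by simpa [hu] using mul_mem huQ hw)

/-- Products of commuting (modulo `Q`) elements. -/
theorem mul_sq [IsCyclic Q] {u v c : G} (hu : u ∈ Subgroup.centralizer (Q : Set G))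
    (hv : v ∈ Subgroup.centralizer (Q : Set G)) (hv2 : v * v ∈ Q) (hc : c ∈ Q)
    (h : u * v * u⁻¹ = v * c) : c * c = 1 ∧ (u * v) * (u * v) = (u * u) * (v * v) * c⁻¹ := by
  have hvc : Commute c v := Subgroup.mem_centralizer_iff.1 hv c hc
  have huc : Commute c u := Subgroup.mem_centralizer_iff.1 hu c hc
  have h1 : u * (v * v) * u⁻¹ = v * v := by
    rw [← Subgroup.mem_centralizer_iff.1 hu _ hv2, mul_inv_cancel_right]
  have h2 : (v * c) * (v * c) = v * v := by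
    rw [← h]; conv_rhs => rw [← h1]
    group
  rw [hvc.mul_mul_mul_comm v c] at h2
  refine ⟨mul_eq_left.1 h2, ?_⟩
  have hvu : v * u = u * v * c⁻¹ := by
    rw [eq_mul_inv_iff_mul_eq, mul_assoc, ← huc.eq, ← mul_assoc, ← h, inv_mul_cancel_right]
  calc (u * v) * (u * v) = u * (v * u) * v := by group
    _ = u * u * v * (c⁻¹ * v) := by rw [hvu]; group
    _ = u * u * v * (v * c⁻¹) := by rw [hvc.inv_left.eq]
    _ = (u * u) * (v * v) * c⁻¹ := by group

theorem isSq_mul_sq [IsCyclic Q] (hQ2 : IsPGroup 2 Q) (h4 : 2 < Nat.card Q) {u v c : G}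
    (hu : u ∈ Subgroup.centralizer (Q : Set G)) (hv : v ∈ Subgroup.centralizer (Q : Set G))
    (hc : c ∈ Q) (h : u * v * u⁻¹ = v * c) (hu2 : IsSq Q (u * u)) (hv2 : IsSq Q (v * v)) :
    IsSq Q ((u * v) * (u * v)) := by
  have hv2' : v * v ∈ Q := by obtain ⟨w, hw, e⟩ := hv2; exact e ▸ mul_mem hw hw
  obtain ⟨hcc, e⟩ := mul_sq hu hv hv2' hc h
  exact e ▸ isSq_mul (isSq_mul hu2 hv2) (isSq_inv (isSq_of_mul_self hQ2 h4 hc hcc))

end CfsgLib.CyclicInter
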